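import Mathlib

/-!
# S5745, the row `(²E₆(2), Fi₂₂)`: the interface of the `²E₆(2)`-side (helper203)
-/

set_option autoImplicit false

open scoped commutatorElement

namespace Cfsg.Agent.H203.EPX

/-- The facts about a long root involution `r` of `G = ²E₆(2)`: `C_G(r) = Q : U₆(2)`, `Q = 2^(1+20)`, `u ∈ Q`. -/
structure GSide {G : Type*} [Group G] (r : G) (Q : Subgroup G) (u : G) : Prop where
  rr : r * r = 1
  r1 : r ≠ 1
  rQ : r ∈ Q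
  le : Q ≤ Subgroup.centralizer {r}
  nor : ∀ x ∈ Subgroup.centralizer ({r} : Set G), ∀ v ∈ Q, x * v * x⁻¹ ∈ Q
  two : IsPGroup 2 Q
  com : ∀ v ∈ Q, ∀ w ∈ Q, ⁅v, w⁆ ∈ Subgroup.zpowers r
  surj : ∀ v ∈ Q, v ∉ Subgroup.zpowers r → ∃ w ∈ Q, ⁅v, w⁆ = r
  /-- `9196830720 = |U₆(2)|` -/
  card : Nat.card (Subgroup.centralizer ({r} : Set G)) = Nat.card Q * 9196830720
  /-- `C_{Q/⟨r⟩}(C_G(r)) = 1` -/
  fix : ∀ v ∈ Q, (∀ x ∈ Subgroup.centralizer ({r} : Set G), ⁅x, v⁆ ∈ Subgroup.zpowers r) → v ∈ Subgroup.zpowers r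
  uQ : u ∈ Q
  u1 : u ∉ Subgroup.zpowers r
  /-- a conjugate of `r` commuting with `r`, not in `Q`, does not fix `u⟨r⟩` -/
  tr : ∀ g : G, g * r * g⁻¹ * r = r * (g * r * g⁻¹) → g * r * g⁻¹ ∉ Q → ⁅g * r * g⁻¹, u⁆ ∉ Subgroup.zpowers r
  seven : ∃ x ∈ Subgroup.centralizer ({r} : Set G), orderOf x = 7 ∧ x * u = u * x
  five : ∃ x ∈ Subgroup.centralizer ({r} : Set G), orderOf x = 5 ∧ x * u = u * x
  /-- opposite root involutions -/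
  opp : ∀ g : G, orderOf (g * r * g⁻¹ * r) = 3 → ∀ v ∈ Q, v * (g * r * g⁻¹) = g * r * g⁻¹ * v → v = 1
  /-- Borel–Tits -/
  bt : ∀ d : G, orderOf d = 2 → 11 ∣ Nat.card (Subgroup.centralizer ({d} : Set G)) →
    ∃ g : G, Subgroup.centralizer ({d} : Set G) ≤ Subgroup.centralizer {g * r * g⁻¹}

end Cfsg.Agent.H203.EPX
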