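import Cfsg.Agent.TwoESix.SheetA
import Cfsg.Agent.UGT.U2.FOne.TwESix
import Cfsg.Agent.Nodes.OppDec
import Cfsg.Agent.Nodes.Unique
import Cfsg.Agent.H891.TE6.Elt
import Cfsg.Agent.H203.EPX.Defs

/-!
# S5745, the row `(²E₆(2), Fi₂₂)`: Bruhat reduction for the transvections (helper203)

`not_stab` : a conjugate `p x_b(1) p⁻¹`, `p ∈ C(r)`, does not fix `u⟨r⟩` if this holds for `99` explicit elements.
-/

set_option autoImplicit false
set_option linter.unusedSectionVars false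
set_option linter.unusedVariables false
set_option maxHeartbeats 400000

namespace Cfsg.Agent.H203.EPX

open CoxeterSystem Cfsg.Agent.ChevalleyStructure.CoxeterGeom Cfsg.Agent.Tits.Roots Cfsg.Agent.Tits.Core
  Cfsg.Agent.Tits.RootComb Cfsg.Agent.Nodes.Comb Cfsg.Agent.Nodes.Reps Cfsg.Agent.Nodes.BNOf
  Cfsg.Agent.Nodes.RGDTwGen Cfsg.Agent.Nodes.RGDChev Cfsg.Agent.Nodes.RGDFold
  Cfsg.Agent.Nodes.RGDFoldSL Cfsg.Agent.Nodes.RGDTwE6 Cfsg.Agent.Nodes.RGDTwTab Cfsg.Agent.Nodes.RGDTwCoordE6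
  Cfsg.Agent.Nodes.RGDTwCoord Cfsg.Agent.Nodes.RGDTwComE6 Cfsg.Agent.Nodes.RGDTwActE6
  Cfsg.Agent.Nodes.RGDLib Cfsg.Agent.Nodes.Bruhat Cfsg.Agent.Nodes.OppDec Cfsg.Agent.Nodes.Unique
open Cfsg.Lie Cfsg.Agent.ChevalleyStructure
open Cfsg.Agent.ChevalleyStructure.TwE6Basic (sg hE6)
open Cfsg.Agent.KFacts.TwESix.Comb (bf rts mem_rts bf_rep rho_root bf_rho pairing_eq bf_add_left bf_smul_left
  bf_neg_left bf_neg_right bf_sub_left)
open Cfsg.Agent.UGT.U2.FOne Cfsg.Agent.UGT.U2.FOne.TwESix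
open Cfsg.Agent.TwoESix.LeviA Cfsg.Agent.TwoESix.LeviB Cfsg.Agent.TwoESix.LeviC Cfsg.Agent.TwoESix.LeviD
  Cfsg.Agent.TwoESix.LongPairs Cfsg.Agent.TwoESix.LongCard Cfsg.Agent.TwoESix.FlagH Cfsg.Agent.TwoESix.SheetA
open Cfsg.Agent.H891.TE6 (one_mem_long long_cases)
open scoped commutatorElement MatrixGroups Pointwise

local notation "ρ" => Cfsg.Agent.KFacts.TwESix.Comb.rho

universe u

/-! ### The stabilizer of `u⟨r⟩` -/

/-- the elements of `C(r)` fixing `u⟨r⟩` -/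
def Stb {G : Type*} [Group G] (r u : G) (hr : r * r = 1) (hu : u * r = r * u) : Subgroup G where
  carrier := {t | t * r = r * t ∧ (t * u * t⁻¹ = u ∨ t * u * t⁻¹ = u * r)}
  one_mem' := ⟨by group, Or.inl (by group)⟩
  mul_mem' := by
    rintro a b ⟨ha, h1⟩ ⟨hb, h2⟩
    refine ⟨by rw [mul_assoc, hb, ← mul_assoc, ha, mul_assoc], ?_⟩
    have e : a * b * u * (a * b)⁻¹ = a * (b * u * b⁻¹) * a⁻¹ := by group
    have e2 : a * (u * r) * a⁻¹ = a * u * a⁻¹ * r := by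
      have : a * (u * r) * a⁻¹ = a * u * (r * a⁻¹) := by group
      rw [this]
      have h3 : r * a⁻¹ = a⁻¹ * r := by
        rw [mul_inv_eq_iff_eq_mul, mul_assoc, ← ha]; group
      rw [h3]; group
    rw [e]
    rcases h2 with h2 | h2
    · rw [h2]; exact h1
    · rw [h2, e2]
      rcases h1 with h1 | h1
      · right; rw [h1]
      · left; rw [h1, mul_assoc, hr, mul_one]
  inv_mem' := by
    rintro a ⟨ha, h1⟩
    have h3 : a⁻¹ * r = r * a⁻¹ := by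
      rw [inv_mul_eq_iff_eq_mul, ← mul_assoc, ha, mul_assoc, mul_inv_cancel, mul_one]
    refine ⟨h3, ?_⟩
    rcases h1 with h1 | h1
    · left
      have : a⁻¹ * u * a⁻¹⁻¹ = a⁻¹ * (a * u * a⁻¹) * a⁻¹⁻¹ := by rw [h1]
      rw [this]; group
    · right
      have h4 : u = a * (u * r) * a⁻¹ := by
        have e2 : a * (u * r) * a⁻¹ = a * u * a⁻¹ * r := by
          have : a * (u * r) * a⁻¹ = a * u * (r * a⁻¹) := by group
          rw [this, ← h3]; group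
        rw [e2, h1, mul_assoc, hr, mul_one]
      calc a⁻¹ * u * a⁻¹⁻¹ = a⁻¹ * (a * (u * r) * a⁻¹) * a⁻¹⁻¹ := by rw [← h4]
        _ = u * r := by group

theorem mem_Stb_of_comm {G : Type*} [Group G] {r u : G} {hr : r * r = 1} {hu : u * r = r * u} {t : G}
    (h1 : t * r = r * t) (h2 : t * u = u * t) : t ∈ Stb r u hr hu :=
  ⟨h1, Or.inl (by rw [h2, mul_inv_cancel_right])⟩

theorem mem_zpowers_two {G : Type*} [Group G] {r x : G} (hr : r * r = 1) (hx : x ∈ Subgroup.zpowers r) :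
    x = 1 ∨ x = r := by
  obtain ⟨n, rfl⟩ := Subgroup.mem_zpowers_iff.1 hx
  have h2 : r ^ (2 : ℤ) = 1 := by rw [zpow_two, hr]
  rcases Int.even_or_odd' n with ⟨m, rfl | rfl⟩
  · left
    rw [zpow_mul, h2, one_zpow]
  · right
    rw [zpow_add, zpow_mul, h2, one_zpow, one_mul, zpow_one]

/-! ### Tables -/

/-- the long roots of the Levi factor with the short roots at `60°` -/
def lst : List ((Fin 4 → ℤ) × (Fin 4 → ℤ) × (Fin 4 → ℤ)) :=
  [(![0, 1, 0, 0], ![0, 1, 1, 0], ![0, 1, 1, 1]), (![0, 1, 2, 0], ![0, 1, 1, 0], ![0, 1, 2, 1]),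
    (![0, 1, 2, 2], ![0, 1, 1, 1], ![0, 1, 2, 1])]

/-- the roots `z`, `z 0 = 0`, `z 1 = 1` -/
def SN : Set (Fin 4 → ℤ) := {z | z ∈ rts ∧ z 0 = 0 ∧ z 1 = 1}

/-- the positive roots `z`, `z 0 = 0`, `z 1 = 0` -/
def SA : Set (Fin 4 → ℤ) := {z | z ∈ rts ∧ z 0 = 0 ∧ z 1 = 0 ∧ ∀ i, 0 ≤ z i}

set_option maxRecDepth 20000 in
theorem tab_pos : ∀ z ∈ rts, (∀ i, 0 ≤ z i) → (z + ρ ∉ rts ∧ ρ ≠ -z) ∧
    (0 < z 0 ∨ (z 0 = 0 ∧ z 1 = 1) ∨ (z 0 = 0 ∧ z 1 = 0)) ∧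
    (z 0 = 0 → z + ![0, 1, 2, 2] ∉ rts ∧ ![0, 1, 2, 2] ≠ -z) := by decide +kernel

set_option maxRecDepth 20000 in
theorem tab_c : (∀ z ∈ rts, bf z z = 4 → z 0 = 0 → ∃ l ∈ lst, z = l.1 ∨ z = -l.1) ∧
    (∀ z ∈ rts, z 0 = 0 → 0 < z 1 → z 1 = 1) := by decide +kernel

set_option maxRecDepth 20000 in
theorem tab_SA : ∀ z ∈ rts, z 0 = 0 → z 1 = 0 → (∀ i, 0 ≤ z i) →
    (z + ![1, 0, 0, 0] ∉ rts ∧ ![1, 0, 0, 0] ≠ -z) ∧ (z + ![1, 3, 4, 2] ∉ rts ∧ ![1, 3, 4, 2] ≠ -z) ∧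
    (∀ y ∈ rts, y 0 = 0 → y 1 = 1 → z ≠ -y) := by decide +kernel

set_option maxRecDepth 20000 in
theorem tab_lst : ∀ l ∈ lst, (l.1 ∈ rts ∧ -l.1 ∈ rts ∧ l.2.1 ∈ rts ∧ l.2.2 ∈ rts ∧ bf l.1 l.1 = 4 ∧
    bf (-l.1) (-l.1) = 4) ∧ (l.1 0 = 0 ∧ l.1 1 = 1 ∧ l.2.1 0 = 0 ∧ l.2.1 1 = 1 ∧ l.2.2 0 = 0 ∧ l.2.2 1 = 1) := by
  decide +kernel

set_option maxRecDepth 20000 in
theorem tab_lst2 : ∀ l ∈ lst, ∀ y ∈ rts, y 0 = 0 → y 1 = 1 → y + l.1 ∉ rts ∧ l.1 ≠ -y := by decide +kernel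

set_option maxRecDepth 20000 in
theorem tab_lst3 : ∀ l ∈ lst, ∀ y ∈ rts, y 0 = 0 → y 1 = 1 → y ≠ l.1 → y ≠ l.2.1 → y ≠ l.2.2 →
    y + -l.1 ∉ rts ∧ -l.1 ≠ -y := by decide +kernel

set_option maxRecDepth 20000 in
theorem tab_SN : ∀ y ∈ rts, y 0 = 0 → y 1 = 1 → ∀ z ∈ rts, z 0 = 0 → z 1 = 1 → y + z ∉ rts ∧ z ≠ -y := by
  decide +kernel

set_option maxRecDepth 20000 in
theorem tab_nn : ∀ z ∈ rts, z 0 = 0 → z 1 = 1 → ∀ i, 0 ≤ z i := by decide +kernel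

set_option maxRecDepth 20000 in
theorem tab_RE : ∀ k : Fin 72, 0 < V chevE6 J k.val 0 → 36 ≤ k.val ∧ ¬ chevE6.InRootSub {j | j ∈ Jn} k.val := by
  decide +kernel

variable {K : Type u} [Field K] [Fintype K] {φ : K →+* K} (F : Four K φ)

include F

/-! ### The frame -/

theorem r0_mem : r0 F ∈ X φ 2 ρ := by
  have := F.charP
  have h := one_mem_long (K := K) (φ := φ) (r := 71) (by decide +kernel)
  have e : V chevE6 J (71 : Fin 72).val = ρ := by decide +kernel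
  rw [e] at h
  exact h

theorem a0_mem : a0 F ∈ X φ 2 ![0, 1, 2, 2] := by
  have := F.charP
  have h := one_mem_long (K := K) (φ := φ) (r := 60) (by decide +kernel)
  have e : V chevE6 J (60 : Fin 72).val = ![0, 1, 2, 2] := by decide +kernel
  rw [e] at h
  exact h

theorem xe46_mem : xe F 46 (by decide +kernel) ∈ X φ 2 ![1, 0, 0, 0] := by
  have := F.charP
  have h := one_mem_long (K := K) (φ := φ) (r := 46) (by decide +kernel)
  have e : V chevE6 J (46 : Fin 72).val = ![1, 0, 0, 0] := by decide +kernel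
  rw [e] at h
  exact h

theorem xe70_mem : xe F 70 (by decide +kernel) ∈ X φ 2 ![1, 3, 4, 2] := by
  have := F.charP
  have h := one_mem_long (K := K) (φ := φ) (r := 70) (by decide +kernel)
  have e : V chevE6 J (70 : Fin 72).val = ![1, 3, 4, 2] := by decide +kernel
  rw [e] at h
  exact h

/-- `u = x_46(1) x_70(1)` -/
abbrev u0 : ↥(twistedE6 K 2) := xe F 46 (by decide +kernel) * xe F 70 (by decide +kernel)

omit F in
theorem long_eq {W : Type*} [Group W] {cs : CoxeterSystem CoxeterMatrix.F₄ W} (F : Four K φ) {z : Fin 4 → ℤ}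
    (hz : IsRoot cs isCartan z) (hl : bf z z = 4) {g h : ↥(twistedE6 K 2)}
    (hg : g ∈ X φ 2 z) (hh : h ∈ X φ 2 z) (hg1 : g ≠ 1) (hh1 : h ≠ 1) : g = h := by
  have key : ∀ g ∈ X φ 2 z, g ≠ 1 → g = x φ 2 z 1 := by
    intro g hg hg1
    obtain ⟨a, ha, rfl⟩ := (mem_X F.sq F.sqq hz _).1 hg
    have h1 := (ok_iff_long hz (show Lg z by unfold Lg; rw [← hl]; unfold bf Qv Q4; ring)).1 ha
    rw [F.sq] at h1
    have h2 : a * (a - 1) = 0 := by linear_combination h1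
    rcases mul_eq_zero.1 h2 with h3 | h3
    · exact absurd (by rw [h3]; exact x_zero F.sq F.sqq hz) hg1
    · rw [sub_eq_zero.1 h3]
  rw [key g hg hg1, key h hh hh1]

/-- an element commuting with `X z`, `z` long -/
theorem comm_long_of {W : Type*} [Group W] {cs : CoxeterSystem CoxeterMatrix.F₄ W} {z : Fin 4 → ℤ}
    (hz : IsRoot cs isCartan z) (hl : bf z z = 4) {g y : ↥(twistedE6 K 2)}
    (hg : ∀ y ∈ X φ 2 z, g * y * g⁻¹ ∈ X φ 2 z) (hy : y ∈ X φ 2 z) : g * y = y * g := by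
  by_cases h1 : y = 1
  · rw [h1]; group
  have h2 : g * y * g⁻¹ = y := long_eq F hz hl (hg y hy) hy (fun h => h1 (by
    have : y = g⁻¹ * (g * y * g⁻¹) * g := by group
    rw [this, h]; group)) h1
  exact mul_inv_eq_iff_eq_mul.1 h2

theorem X_le_RE {z : Fin 4 → ℤ} (hz : 0 < z 0) : X φ 2 z ≤ RE K := by
  intro g hg
  obtain ⟨h1, -⟩ := Subgroup.mem_subgroupOf.1 hg
  refine Subgroup.mem_subgroupOf.2 (Cfsg.Agent.ChevalleyStructure.TwistedU.rspan_le _ ?_ h1)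
  rintro k ⟨hk, hkz⟩ t
  have hk' : k < 72 := by
    have : chevE6.nroots = 72 := nroots_eq
    omega
  obtain ⟨h3, h4⟩ := tab_RE ⟨k, hk'⟩ (by
    show 0 < V chevE6 J k 0
    rw [hkz]; exact hz)
  exact x_mem_UR (r := ⟨k, hk'⟩) h3 h4 t

theorem u0_RE : u0 F ∈ RE K :=
  mul_mem (X_le_RE F (by decide) (xe46_mem F)) (X_le_RE F (by decide) (xe70_mem F))

theorem u0_r0 : u0 F * r0 F = r0 F * u0 F := RE_comm_r0 F (u0_RE F)

/-- the stabilizer of `u⟨r⟩` -/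
abbrev St0 : Subgroup ↥(twistedE6 K 2) := Stb (r0 F) (u0 F) (r0_sq' F) (u0_r0 F)

theorem RE_le_St : RE K ≤ St0 F := by
  intro e he
  refine ⟨RE_comm_r0 F he, ?_⟩
  rcases comm_RE' F he (u0_RE F) with h | h
  · left
    rw [h, mul_inv_cancel_right]
  · right
    rw [h]
    have h2 : r0 F * e⁻¹ = e⁻¹ * r0 F := (RE_comm_r0 F (inv_mem he)).symm
    rw [mul_assoc (u0 F * e), h2]
    group

variable {W : Type*} [Group W] (cs : CoxeterSystem CoxeterMatrix.F₄ W)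

theorem T_comm {z : Fin 4 → ℤ} (hz : z ∈ rts) (hl : bf z z = 4) {g y : ↥(twistedE6 K 2)} (hg : g ∈ T K 2)
    (hy : y ∈ X φ 2 z) : g * y = y * g := by
  obtain ⟨cs, -⟩ : ∃ cs, cs = CoxeterMatrix.F₄.toCoxeterSystem := ⟨_, rfl⟩
  have := F.charP
  have : Fact (Nat.Prime 2) := ⟨Nat.prime_two⟩
  have hzr : IsRoot cs isCartan z := (mem_rts cs).2 hz
  refine comm_long_of F hzr hl (fun y hy => ?_) hy
  rw [← (rgd cs F.sq F.sqq 2).tor z hzr g hg]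
  exact ⟨y, hy, rfl⟩

/-- `B ≤ C(r)` -/
theorem B_le_C : RGD.B cs isCartan (T K 2) (X φ 2) ≤ Subgroup.centralizer {r0 F} := by
  refine sup_le ?_ (RGD.Sup_le ?_)
  · intro t ht
    rw [Subgroup.mem_centralizer_singleton_iff]
    exact T_comm F (by decide +kernel) (by decide +kernel) ht (r0_mem F)
  · rintro z ⟨hz, h0⟩ g hg
    rw [Subgroup.mem_centralizer_singleton_iff]
    obtain ⟨⟨h1, h2⟩, -⟩ := tab_pos z ((mem_rts cs).1 hz) h0
    exact commute_X F.sq F.sqq hz (rho_root cs) h1 h2 g hg _ (r0_mem F)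

/-- the elements of `C(r)` commuting with `a₀` modulo `RE` -/
def CQ : Subgroup ↥(twistedE6 K 2) where
  carrier := {b | b * r0 F = r0 F * b ∧ b * a0 F * b⁻¹ * (a0 F)⁻¹ ∈ RE K}
  one_mem' := ⟨by group, by
    have : (1 : ↥(twistedE6 K 2)) * a0 F * 1⁻¹ * (a0 F)⁻¹ = 1 := by group
    rw [this]; exact one_mem _⟩
  mul_mem' := by
    rintro a b ⟨ha, h1⟩ ⟨hb, h2⟩
    refine ⟨by rw [mul_assoc, hb, ← mul_assoc, ha, mul_assoc], ?_⟩
    have e : a * b * a0 F * (a * b)⁻¹ * (a0 F)⁻¹ = a * (b * a0 F * b⁻¹ * (a0 F)⁻¹) * a⁻¹ *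
        (a * a0 F * a⁻¹ * (a0 F)⁻¹) := by group
    rw [e]
    exact mul_mem (R_norm F a ha _ h2) h1
  inv_mem' := by
    rintro a ⟨ha, h1⟩
    have h3 : a⁻¹ * r0 F = r0 F * a⁻¹ := by
      rw [inv_mul_eq_iff_eq_mul, ← mul_assoc, ha, mul_assoc, mul_inv_cancel, mul_one]
    refine ⟨h3, ?_⟩
    have e : a⁻¹ * a0 F * a⁻¹⁻¹ * (a0 F)⁻¹ = a⁻¹ * (a * a0 F * a⁻¹ * (a0 F)⁻¹)⁻¹ * a⁻¹⁻¹ := by group
    rw [e]
    exact R_norm F _ h3 _ (inv_mem h1)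

theorem mem_CQ_of_comm {b : ↥(twistedE6 K 2)} (h1 : b * r0 F = r0 F * b) (h2 : b * a0 F = a0 F * b) : b ∈ CQ F :=
  ⟨h1, by
    rw [h2]
    have : a0 F * b * b⁻¹ * (a0 F)⁻¹ = 1 := by group
    rw [this]; exact one_mem _⟩

theorem a0_comm_r0 : a0 F * r0 F = r0 F * a0 F := by
  have := F.charP
  exact Subtype.ext (comm60 (K := K)).symm

theorem a0_ne : a0 F ≠ 1 := by
  have := F.charP
  exact fun h => x_ne_one (K := K) (r := 60) (by norm_num) (congrArg Subtype.val h)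

theorem B_le_CQ : RGD.B cs isCartan (T K 2) (X φ 2) ≤ CQ F := by
  refine sup_le ?_ (RGD.Sup_le ?_)
  · intro t ht
    refine mem_CQ_of_comm F (T_comm F (by decide +kernel) (by decide +kernel) ht (r0_mem F))
      (T_comm F (by decide +kernel) (by decide +kernel) ht (a0_mem F))
  · rintro z ⟨hz, h0⟩ g hg
    obtain ⟨⟨h1, h2⟩, h3, h4⟩ := tab_pos z ((mem_rts cs).1 hz) h0
    have hgr : g * r0 F = r0 F * g := commute_X F.sq F.sqq hz (rho_root cs) h1 h2 g hg _ (r0_mem F)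
    have key : z 0 = 0 → g ∈ CQ F := fun h5 => by
      obtain ⟨h6, h7⟩ := h4 h5
      exact mem_CQ_of_comm F hgr (commute_X F.sq F.sqq hz ((mem_rts cs).2 (by decide +kernel)) h6 h7 g hg _
        (a0_mem F))
    rcases h3 with h3 | h3 | h3
    · have hgR := X_le_RE F h3 hg
      refine ⟨hgr, ?_⟩
      have e : g * a0 F * g⁻¹ * (a0 F)⁻¹ = g * (a0 F * g⁻¹ * (a0 F)⁻¹) := by group
      rw [e]
      exact mul_mem hgR (R_norm F _ (a0_comm_r0 F) _ (inv_mem hgR))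
    · exact key h3.1
    · exact key h3.1

theorem closed_single {y : Fin 4 → ℤ} (hy : IsRoot cs isCartan y) : Closed cs isCartan {y} := by
  intro a ha b hb z hz
  rw [Set.mem_singleton_iff] at ha hb ⊢
  rw [ha, hb] at hz
  exact btwn_self hy hz

/-- a root whose root group contains `r` is the highest root -/
theorem eq_rho {y : Fin 4 → ℤ} (hy : IsRoot cs isCartan y) (h : r0 F ∈ X φ 2 y) : y = ρ := by
  have := F.charP
  have : Fact (Nat.Prime 2) := ⟨Nat.prime_two⟩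
  have hW : Finite W := Cfsg.Agent.KFacts.TwESix.Comb.finiteW cs
  have R := rgd cs F.sq F.sqq 2
  have h0ρ : (0 : Fin 4 → ℤ) ≤ ρ := by
    intro i
    fin_cases i <;> decide
  rcases hy.pos_or_neg with h0 | h0
  · by_contra hne
    have h1 := inf_eq R (S := {y}) (S' := {ρ}) (by
        intro z hz
        rw [Set.mem_singleton_iff] at hz
        rw [hz]
        exact ⟨hy, h0⟩)
      (by
        intro z hz
        rw [Set.mem_singleton_iff] at hz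
        rw [hz]
        exact ⟨rho_root cs, h0ρ⟩)
      (closed_single F cs hy) (closed_single F cs (rho_root cs))
    have h3 : ({y} ∩ {ρ} : Set (Fin 4 → ℤ)) = ∅ := by
      apply Set.eq_empty_of_forall_notMem
      rintro z ⟨hz1, hz2⟩
      rw [Set.mem_singleton_iff] at hz1 hz2
      exact hne (hz1.symm.trans hz2)
    have h4 : RGD.Sup (X φ 2) {y} ⊓ RGD.Sup (X φ 2) {ρ} ≤ ⊥ := by
      rw [h1, h3, Sup_empty]
    have h2 : r0 F ∈ RGD.Sup (X φ 2) {y} ⊓ RGD.Sup (X φ 2) {ρ} :=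
      Subgroup.mem_inf.2 ⟨RGD.le_Sup (Set.mem_singleton y) h, RGD.le_Sup (Set.mem_singleton ρ) (r0_mem F)⟩
    exact r0_ne' F (Subgroup.mem_bot.1 (h4 h2))
  · exfalso
    apply r0_ne' F
    refine eq_one_of_mem_UN_of_mem_B R (X_le_UN hy h0 h) ?_
    exact RGD.U_le_B (RGD.le_Sup (S := RGD.Pos cs isCartan) ⟨rho_root cs, h0ρ⟩ (r0_mem F))

/-! ### The decomposition of `B` -/

/-- `D = T ⟨X z : z > 0, z 0 = z 1 = 0⟩` -/
noncomputable abbrev DD0 (φ : K →+* K) : Subgroup ↥(twistedE6 K 2) := T K 2 ⊔ RGD.Sup (X φ 2) SA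

theorem DD0_le_St : DD0 φ ≤ St0 F := by
  obtain ⟨cs, -⟩ : ∃ cs, cs = CoxeterMatrix.F₄.toCoxeterSystem := ⟨_, rfl⟩
  refine sup_le ?_ (RGD.Sup_le ?_)
  · intro t ht
    refine mem_Stb_of_comm (T_comm F (by decide +kernel) (by decide +kernel) ht (r0_mem F)) ?_
    have h1 : t * xe F 46 (by decide +kernel) = xe F 46 (by decide +kernel) * t :=
      T_comm F (by decide +kernel) (by decide +kernel) ht (xe46_mem F)
    have h2 : t * xe F 70 (by decide +kernel) = xe F 70 (by decide +kernel) * t :=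
      T_comm F (by decide +kernel) (by decide +kernel) ht (xe70_mem F)
    show t * (xe F 46 (by decide +kernel) * xe F 70 (by decide +kernel)) =
      xe F 46 (by decide +kernel) * xe F 70 (by decide +kernel) * t
    rw [← mul_assoc, h1, mul_assoc, h2, mul_assoc]
  · rintro z ⟨hz, hz0, hz1, hzp⟩ g hg
    have hzr : IsRoot cs isCartan z := (mem_rts cs).2 hz
    obtain ⟨⟨h1, h2⟩, -⟩ := tab_pos z hz hzp
    obtain ⟨⟨h3, h4⟩, ⟨h5, h6⟩, -⟩ := tab_SA z hz hz0 hz1 hzp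
    refine mem_Stb_of_comm (commute_X F.sq F.sqq hzr (rho_root cs) h1 h2 g hg _ (r0_mem F)) ?_
    have h7 := commute_X F.sq F.sqq hzr ((mem_rts cs).2 (by decide +kernel)) h3 h4 g hg _ (xe46_mem F)
    have h8 := commute_X F.sq F.sqq hzr ((mem_rts cs).2 (by decide +kernel)) h5 h6 g hg _ (xe70_mem F)
    show g * (xe F 46 (by decide +kernel) * xe F 70 (by decide +kernel)) =
      xe F 46 (by decide +kernel) * xe F 70 (by decide +kernel) * g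
    rw [← mul_assoc, h7, mul_assoc, h8, mul_assoc]

theorem DD0_le_norm : DD0 φ ≤ Subgroup.normalizer (RGD.Sup (X φ 2) SN : Set ↥(twistedE6 K 2)) := by
  obtain ⟨cs, -⟩ : ∃ cs, cs = CoxeterMatrix.F₄.toCoxeterSystem := ⟨_, rfl⟩
  have := F.charP
  have : Fact (Nat.Prime 2) := ⟨Nat.prime_two⟩
  have R := rgd cs F.sq F.sqq 2
  refine sup_le (R.T_le_normalizer fun z hz => (mem_rts cs).2 hz.1) (RGD.Sup_le ?_)
  rintro z ⟨hz, hz0, hz1, hzp⟩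
  refine R.le_normalizer ((mem_rts cs).2 hz) ?_
  rintro y ⟨hy, hy0, hy1⟩
  refine ⟨(mem_rts cs).2 hy, Or.inr ⟨(tab_SA z hz hz0 hz1 hzp).2.2 y hy hy0 hy1, ?_⟩⟩
  rintro t ⟨ht, m, a, b, hm, ha, hb, he⟩
  have e0 := congrFun he 0
  have e1 := congrFun he 1
  simp only [Pi.smul_apply, Pi.add_apply, smul_eq_mul] at e0 e1
  rw [hz0, hy0, mul_zero, mul_zero, add_zero] at e0
  rw [hz1, hy1, mul_zero, zero_add, mul_one] at e1
  have h0 : t 0 = 0 := (mul_eq_zero.1 e0).resolve_left hm.ne'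
  have h1 : 0 < t 1 := by
    by_contra hcon
    have := mul_nonpos_of_nonneg_of_nonpos hm.le (not_lt.1 hcon)
    omega
  exact ⟨(mem_rts cs).1 ht, h0, tab_c.2 t ((mem_rts cs).1 ht) h0 h1⟩

/-- every element of `B` is `e d v`, `e ∈ RE`, `d ∈ D`, `v ∈ N` -/
theorem B_dec {b : ↥(twistedE6 K 2)} (hb : b ∈ RGD.B cs isCartan (T K 2) (X φ 2)) :
    ∃ e ∈ RE K, ∃ d ∈ DD0 φ, ∃ v ∈ RGD.Sup (X φ 2) SN, b = e * (d * v) := by
  have h1 : RGD.B cs isCartan (T K 2) (X φ 2) ≤ RE K ⊔ (DD0 φ ⊔ RGD.Sup (X φ 2) SN) := by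
    refine sup_le (le_trans (le_trans le_sup_left le_sup_left) le_sup_right) (RGD.Sup_le ?_)
    rintro z ⟨hz, h0⟩
    have hz' := (mem_rts cs).1 hz
    obtain ⟨-, h3, -⟩ := tab_pos z hz' h0
    rcases h3 with h3 | h3 | h3
    · exact (X_le_RE F h3).trans le_sup_left
    · exact le_trans (RGD.le_Sup (S := SN) ⟨hz', h3.1, h3.2⟩) (le_trans le_sup_right le_sup_right)
    · exact le_trans (le_trans (RGD.le_Sup (S := SA) ⟨hz', h3.1, h3.2, h0⟩) le_sup_right)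
        (le_trans le_sup_left le_sup_right)
  have hC : DD0 φ ⊔ RGD.Sup (X φ 2) SN ≤ Subgroup.normalizer (RE K : Set ↥(twistedE6 K 2)) := by
    have h2 : ∀ g, g * r0 F = r0 F * g → g ∈ Subgroup.normalizer (RE K : Set ↥(twistedE6 K 2)) := by
      intro g hg
      refine Subgroup.mem_normalizer_iff.2 fun y => ⟨fun hy => R_norm F g hg y hy, fun hy => ?_⟩
      have hg' : g⁻¹ * r0 F = r0 F * g⁻¹ := by
        rw [inv_mul_eq_iff_eq_mul, ← mul_assoc, hg, mul_assoc, mul_inv_cancel, mul_one]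
      have h3 := R_norm F g⁻¹ hg' _ hy
      have e : g⁻¹ * (g * y * g⁻¹) * g⁻¹⁻¹ = y := by group
      rwa [e] at h3
    refine sup_le (fun g hg => h2 g (DD0_le_St F hg).1) (RGD.Sup_le ?_)
    rintro z ⟨hz, hz0, hz1⟩ g hg
    obtain ⟨⟨h3, h4⟩, -⟩ := tab_pos z hz (tab_nn z hz hz0 hz1)
    exact h2 g (commute_X F.sq F.sqq ((mem_rts cs).2 hz) (rho_root cs) h3 h4 g hg _ (r0_mem F))
  have h2 : b ∈ (RE K : Set ↥(twistedE6 K 2)) * ((DD0 φ ⊔ RGD.Sup (X φ 2) SN : Subgroup ↥(twistedE6 K 2)) :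
      Set ↥(twistedE6 K 2)) := by
    rw [← Subgroup.coe_mul_of_right_le_normalizer_left _ _ hC]
    exact h1 hb
  obtain ⟨e, he, c, hc, rfl⟩ := h2
  have h3 : c ∈ (DD0 φ : Set ↥(twistedE6 K 2)) * (RGD.Sup (X φ 2) SN : Set ↥(twistedE6 K 2)) := by
    rw [← Subgroup.coe_mul_of_left_le_normalizer_right _ _ (DD0_le_norm F)]
    exact hc
  obtain ⟨d, hd, v, hv, rfl⟩ := h3
  exact ⟨e, he, d, hd, v, hv, rfl⟩

/-! ### The abelian group `N` -/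

theorem SN_comm {g h : ↥(twistedE6 K 2)} (hg : g ∈ RGD.Sup (X φ 2) SN) {z : Fin 4 → ℤ} (hz : z ∈ SN)
    (hh : h ∈ X φ 2 z) : h * g = g * h := by
  obtain ⟨cs, -⟩ : ∃ cs, cs = CoxeterMatrix.F₄.toCoxeterSystem := ⟨_, rfl⟩
  refine comm_Sup (fun y hy v hv => ?_) g hg
  obtain ⟨h1, h2⟩ := tab_SN z hz.1 hz.2.1 hz.2.2 y hy.1 hy.2.1 hy.2.2
  exact commute_X F.sq F.sqq ((mem_rts cs).2 hz.1) ((mem_rts cs).2 hy.1) h1 h2 h hh v hv

/-- for `v ∈ N`, `v y v⁻¹`, `y ∈ X (-b)`, depends only on three components -/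
theorem N_dec {l : (Fin 4 → ℤ) × (Fin 4 → ℤ) × (Fin 4 → ℤ)} (hl : l ∈ lst) {v : ↥(twistedE6 K 2)}
    (hv : v ∈ RGD.Sup (X φ 2) SN) : ∃ p1 ∈ X φ 2 l.1, ∃ p2 ∈ X φ 2 l.2.1, ∃ p3 ∈ X φ 2 l.2.2,
      ∃ c : ↥(twistedE6 K 2), (∀ y ∈ X φ 2 (-l.1), c * y = y * c) ∧ v = p1 * p2 * p3 * c := by
  obtain ⟨cs, -⟩ : ∃ cs, cs = CoxeterMatrix.F₄.toCoxeterSystem := ⟨_, rfl⟩
  obtain ⟨⟨t1, t2, t3, t4, t5, t6⟩, t7, t8, t9, t10, t11, t12⟩ := tab_lst l hl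
  have m1 : l.1 ∈ SN := ⟨t1, t7, t8⟩
  have m2 : l.2.1 ∈ SN := ⟨t3, t9, t10⟩
  have m3 : l.2.2 ∈ SN := ⟨t4, t11, t12⟩
  -- the elements of this form
  let P : Subgroup ↥(twistedE6 K 2) := RGD.Sup (X φ 2) SN
  have hcm : ∀ g ∈ P, ∀ h ∈ P, g * h = h * g := by
    intro g hg h hh
    have h1 : P ≤ Subgroup.centralizer ({h} : Set ↥(twistedE6 K 2)) := by
      refine RGD.Sup_le fun z hz x hx => ?_
      rw [Subgroup.mem_centralizer_singleton_iff]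
      exact SN_comm F hh hz hx
    exact Subgroup.mem_centralizer_singleton_iff.1 (h1 hg)
  let Q : Subgroup ↥(twistedE6 K 2) :=
    { carrier := {v | v ∈ P ∧ ∃ p1 ∈ X φ 2 l.1, ∃ p2 ∈ X φ 2 l.2.1, ∃ p3 ∈ X φ 2 l.2.2,
        ∃ c ∈ P, (∀ y ∈ X φ 2 (-l.1), c * y = y * c) ∧ v = p1 * p2 * p3 * c}
      one_mem' := ⟨one_mem _, 1, one_mem _, 1, one_mem _, 1, one_mem _, 1, one_mem _, fun y _ => by group, by group⟩
      mul_mem' := by
        rintro _ _ ⟨ha, p1, h1, p2, h2, p3, h3, c, hc, hcy, rfl⟩ ⟨hb, p1', h1', p2', h2', p3', h3', c', hc', hcy', rfl⟩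
        refine ⟨mul_mem ha hb, p1 * p1', mul_mem h1 h1', p2 * p2', mul_mem h2 h2', p3 * p3', mul_mem h3 h3',
          c * c', mul_mem hc hc', fun y hy => by rw [mul_assoc, hcy' y hy, ← mul_assoc, hcy y hy, mul_assoc], ?_⟩
        have i1 := RGD.le_Sup (X := X φ 2) m1 h1'
        have i2 := RGD.le_Sup (X := X φ 2) m2 h2
        have i2' := RGD.le_Sup (X := X φ 2) m2 h2'
        have i3 := RGD.le_Sup (X := X φ 2) m3 h3
        have i3' := RGD.le_Sup (X := X φ 2) m3 h3'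
        calc p1 * p2 * p3 * c * (p1' * p2' * p3' * c')
            = p1 * p2 * p3 * (c * p1') * (p2' * p3' * c') := by group
          _ = p1 * p2 * (p3 * p1') * c * (p2' * p3' * c') := by rw [hcm c hc p1' i1]; group
          _ = p1 * (p2 * p1') * p3 * c * (p2' * p3' * c') := by rw [hcm p3 i3 p1' i1]; group
          _ = p1 * p1' * p2 * p3 * (c * p2') * (p3' * c') := by rw [hcm p2 i2 p1' i1]; group
          _ = p1 * p1' * p2 * (p3 * p2') * c * (p3' * c') := by rw [hcm c hc p2' i2']; group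
          _ = p1 * p1' * p2 * p2' * p3 * (c * p3') * c' := by rw [hcm p3 i3 p2' i2']; group
          _ = _ := by rw [hcm c hc p3' i3']; group
      inv_mem' := by
        rintro _ ⟨ha, p1, h1, p2, h2, p3, h3, c, hc, hcy, rfl⟩
        refine ⟨inv_mem ha, p1⁻¹, inv_mem h1, p2⁻¹, inv_mem h2, p3⁻¹, inv_mem h3, c⁻¹, inv_mem hc, fun y hy => ?_, ?_⟩
        · have h4 := hcy y hy
          rw [inv_mul_eq_iff_eq_mul, ← mul_assoc, h4, mul_assoc, mul_inv_cancel, mul_one]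
        · have i1 := inv_mem (RGD.le_Sup (X := X φ 2) m1 h1)
          have i2 := inv_mem (RGD.le_Sup (X := X φ 2) m2 h2)
          have i3 := inv_mem (RGD.le_Sup (X := X φ 2) m3 h3)
          have i4 := inv_mem hc
          calc (p1 * p2 * p3 * c)⁻¹ = c⁻¹ * (p3⁻¹ * (p2⁻¹ * p1⁻¹)) := by group
            _ = (p3⁻¹ * (p2⁻¹ * p1⁻¹)) * c⁻¹ := hcm _ i4 _ (mul_mem i3 (mul_mem i2 i1))
            _ = (p2⁻¹ * p1⁻¹) * p3⁻¹ * c⁻¹ := by rw [hcm _ i3 _ (mul_mem i2 i1)]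
            _ = _ := by rw [hcm _ i2 _ i1] }
  have h1 : P ≤ Q := by
    refine RGD.Sup_le fun z hz x hx => ?_
    have hxP : x ∈ P := RGD.le_Sup hz hx
    by_cases e1 : z = l.1
    · exact ⟨hxP, x, e1 ▸ hx, 1, one_mem _, 1, one_mem _, 1, one_mem _, fun y _ => by group, by group⟩
    by_cases e2 : z = l.2.1
    · exact ⟨hxP, 1, one_mem _, x, e2 ▸ hx, 1, one_mem _, 1, one_mem _, fun y _ => by group, by group⟩
    by_cases e3 : z = l.2.2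
    · exact ⟨hxP, 1, one_mem _, 1, one_mem _, x, e3 ▸ hx, 1, one_mem _, fun y _ => by group, by group⟩
    refine ⟨hxP, 1, one_mem _, 1, one_mem _, 1, one_mem _, x, hxP, fun y hy => ?_, by group⟩
    obtain ⟨h2, h3⟩ := tab_lst3 l hl z hz.1 hz.2.1 hz.2.2 e1 e2 e3
    exact commute_X F.sq F.sqq ((mem_rts cs).2 hz.1) ((mem_rts cs).2 t2) h2 h3 x hx y hy
  obtain ⟨-, p1, h1, p2, h2, p3, h3, c, hc, hcy, e⟩ := h1 hv
  exact ⟨p1, h1, p2, h2, p3, h3, c, hcy, e⟩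

/-! ### The reduction -/

/-- **(4a)** A conjugate of `a₀` under `C(r)` does not fix `u⟨r⟩`, if this holds for the `99` elements. -/
theorem not_stab
    (hpos : ∀ l ∈ lst, ∀ y ∈ X φ 2 l.1, y ≠ 1 → y ∉ St0 F)
    (hneg : ∀ l ∈ lst, ∀ p1 ∈ X φ 2 l.1, ∀ p2 ∈ X φ 2 l.2.1, ∀ p3 ∈ X φ 2 l.2.2, ∀ y ∈ X φ 2 (-l.1), y ≠ 1 →
      p1 * p2 * p3 * y * (p1 * p2 * p3)⁻¹ ∉ St0 F)
    {g : ↥(twistedE6 K 2)} (hg : g * r0 F = r0 F * g) : g * a0 F * g⁻¹ ∉ St0 F := by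
  obtain ⟨cs, -⟩ : ∃ cs, cs = CoxeterMatrix.F₄.toCoxeterSystem := ⟨_, rfl⟩
  have := F.charP
  have : Fact (Nat.Prime 2) := ⟨Nat.prime_two⟩
  have hW : Finite _ := Cfsg.Agent.KFacts.TwESix.Comb.finiteW cs
  have R := rgd cs F.sq F.sqq 2
  have hgG : g ∈ GG cs isCartan (T K 2) (X φ 2) := by
    rw [GG_top φ F.sq F.sqq]; exact Subgroup.mem_top _
  obtain ⟨w, b₁, hb₁, k, hk, b₂, hb₂, rfl⟩ := (mem_GG R).1 hgG
  have h1 : ∀ b ∈ RGD.B cs isCartan (T K 2) (X φ 2), b * r0 F = r0 F * b := fun b hb =>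
    Subgroup.mem_centralizer_singleton_iff.1 (B_le_C F cs hb)
  have c1 := h1 b₁ hb₁
  have c2 := h1 b₂ hb₂
  have hkr : k * r0 F = r0 F * k := by
    have e : k = b₁⁻¹ * (b₁ * k * b₂) * b₂⁻¹ := by group
    have c1' : b₁⁻¹ * r0 F = r0 F * b₁⁻¹ := by
      rw [inv_mul_eq_iff_eq_mul, ← mul_assoc, c1, mul_assoc, mul_inv_cancel, mul_one]
    have c2' : b₂⁻¹ * r0 F = r0 F * b₂⁻¹ := by
      rw [inv_mul_eq_iff_eq_mul, ← mul_assoc, c2, mul_assoc, mul_inv_cancel, mul_one]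
    have e3 : b₁⁻¹ * (b₁ * k * b₂) * b₂⁻¹ * r0 F = r0 F * (b₁⁻¹ * (b₁ * k * b₂) * b₂⁻¹) := by
      calc b₁⁻¹ * (b₁ * k * b₂) * b₂⁻¹ * r0 F = b₁⁻¹ * (b₁ * k * b₂) * (b₂⁻¹ * r0 F) := by rw [mul_assoc]
        _ = b₁⁻¹ * (b₁ * k * b₂ * r0 F) * b₂⁻¹ := by rw [c2']; group
        _ = (b₁⁻¹ * r0 F) * (b₁ * k * b₂) * b₂⁻¹ := by rw [hg]; group
        _ = _ := by rw [c1']; group
    rw [← e] at e3
    exact e3
  -- `w ρ = ρ`
  have hwρ : rep cs isCartan w ρ = ρ := by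
    refine eq_rho F cs ((rho_root cs).act w) ?_
    rw [← R.conj_rp hk (rho_root cs)]
    refine ⟨r0 F, r0_mem F, ?_⟩
    show k * r0 F * k⁻¹ = r0 F
    rw [hkr, mul_inv_cancel_right]
  have ha : (![0, 1, 2, 2] : Fin 4 → ℤ) ∈ rts := by decide +kernel
  have har : IsRoot cs isCartan ![0, 1, 2, 2] := (mem_rts cs).2 ha
  obtain ⟨c, hc⟩ : ∃ c, c = rep cs isCartan w ![0, 1, 2, 2] := ⟨_, rfl⟩
  have hcr : IsRoot cs isCartan c := by rw [hc]; exact har.act w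
  have hcl : bf c c = 4 := by
    rw [hc, bf_rep]
    decide +kernel
  have hc0 : c 0 = 0 := by
    have h2 : bf c ρ = bf ![0, 1, 2, 2] ρ := by
      rw [hc]
      conv_lhs => rw [← hwρ]
      rw [bf_rep]
    have h3 : bf ![0, 1, 2, 2] ρ = 0 := by decide +kernel
    rw [h3, bf_rho] at h2
    omega
  obtain ⟨y, hy⟩ : ∃ y, y = k * a0 F * k⁻¹ := ⟨_, rfl⟩
  have hyc : y ∈ X φ 2 c := by
    rw [hc, ← R.conj_rp hk har]
    exact ⟨a0 F, a0_mem F, hy.symm⟩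
  have hy1 : y ≠ 1 := by
    intro h
    apply a0_ne F
    have : a0 F = k⁻¹ * (k * a0 F * k⁻¹) * k := by group
    rw [this, ← hy, h]; group
  -- modulo `RE`
  have hq := (B_le_CQ F cs hb₂).2
  obtain ⟨e, he⟩ : ∃ e, e = b₂ * a0 F * b₂⁻¹ * (a0 F)⁻¹ := ⟨_, rfl⟩
  rw [← he] at hq
  have hbk : (b₁ * k) * r0 F = r0 F * (b₁ * k) := by rw [mul_assoc, hkr, ← mul_assoc, c1, mul_assoc]
  have e1 : b₁ * k * b₂ * a0 F * (b₁ * k * b₂)⁻¹ = (b₁ * k) * e * (b₁ * k)⁻¹ * (b₁ * y * b₁⁻¹) := by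
    rw [he, hy]; group
  have he1 := RE_le_St F (R_norm F _ hbk e hq)
  intro hmem
  rw [e1] at hmem
  have h2 : b₁ * y * b₁⁻¹ ∈ St0 F := (Subgroup.mul_mem_cancel_left _ he1).1 hmem
  obtain ⟨e', he', d, hd, v, hv, rfl⟩ := B_dec F cs hb₁
  have e2 : e' * (d * v) * y * (e' * (d * v))⁻¹ = (e' * d) * (v * y * v⁻¹) * (e' * d)⁻¹ := by group
  have hed : e' * d ∈ St0 F := mul_mem (RE_le_St F he') (DD0_le_St F hd)
  rw [e2] at h2
  have h3 : v * y * v⁻¹ ∈ St0 F := by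
    have h4 := mul_mem (mul_mem (inv_mem hed) h2) hed
    have e3 : (e' * d)⁻¹ * ((e' * d) * (v * y * v⁻¹) * (e' * d)⁻¹) * (e' * d) = v * y * v⁻¹ := by group
    rwa [e3] at h4
  obtain ⟨l, hl, h4 | h4⟩ := tab_c.1 c ((mem_rts cs).1 hcr) hcl hc0
  · subst h4
    obtain ⟨⟨t1, t2, t3, t4, t5, t6⟩, t7, t8, t9, t10, t11, t12⟩ := tab_lst l hl
    have h5 := SN_comm F hv ⟨t1, t7, t8⟩ hyc
    rw [← h5, mul_inv_cancel_right] at h3
    exact hpos l hl y hyc hy1 h3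
  · subst h4
    obtain ⟨p1, m1, p2, m2, p3, m3, c', hc', e4⟩ := N_dec F hl hv
    have e5 : v * y * v⁻¹ = p1 * p2 * p3 * y * (p1 * p2 * p3)⁻¹ := by
      have h5 := hc' y hyc
      have h6 : c' * y * c'⁻¹ = y := by rw [h5, mul_inv_cancel_right]
      calc v * y * v⁻¹ = p1 * p2 * p3 * (c' * y * c'⁻¹) * (p1 * p2 * p3)⁻¹ := by rw [e4]; group
        _ = _ := by rw [h6]
    rw [e5] at h3
    exact hneg l hl p1 m1 p2 m2 p3 m3 y hyc hy1 h3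

/-! ### The fields `tr` and `opp` of `GSide` -/

/-- **`tr`** -/
theorem tr
    (hpos : ∀ l ∈ lst, ∀ y ∈ X φ 2 l.1, y ≠ 1 → y ∉ St0 F)
    (hneg : ∀ l ∈ lst, ∀ p1 ∈ X φ 2 l.1, ∀ p2 ∈ X φ 2 l.2.1, ∀ p3 ∈ X φ 2 l.2.2, ∀ y ∈ X φ 2 (-l.1), y ≠ 1 →
      p1 * p2 * p3 * y * (p1 * p2 * p3)⁻¹ ∉ St0 F)
    (g : ↥(twistedE6 K 2)) (hc : g * r0 F * g⁻¹ * r0 F = r0 F * (g * r0 F * g⁻¹)) (hQ : g * r0 F * g⁻¹ ∉ RE K) :
    ⁅g * r0 F * g⁻¹, u0 F⁆ ∉ Subgroup.zpowers (r0 F) := by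
  have := F.charP
  obtain ⟨b, hb, h1, γ, hγ, h2⟩ := pair5 F g.2
  obtain ⟨t, ht⟩ : ∃ t, t = g * r0 F * g⁻¹ := ⟨_, rfl⟩
  rw [← ht] at hc hQ ⊢
  obtain ⟨b', hb'⟩ : ∃ b' : ↥(twistedE6 K 2), b' = ⟨b, hb⟩ := ⟨_, rfl⟩
  have hbr : b' * r0 F = r0 F * b' := by
    rw [hb']
    apply Subtype.ext
    show b * TwE6Basic.x 71 1 = TwE6Basic.x 71 1 * b
    exact mul_inv_eq_iff_eq_mul.1 h1
  have h2' : ((b' * t * b'⁻¹ : ↥(twistedE6 K 2)) : GL chevE6.Idx K) = TwE6Basic.x γ 1 := by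
    rw [hb', ht]
    exact h2
  -- `b t b⁻¹` commutes with `r`
  have hbt : (b' * t * b'⁻¹) * r0 F = r0 F * (b' * t * b'⁻¹) := by
    have h3 : b'⁻¹ * r0 F = r0 F * b'⁻¹ := by
      rw [inv_mul_eq_iff_eq_mul, ← mul_assoc, hbr, mul_assoc, mul_inv_cancel, mul_one]
    calc b' * t * b'⁻¹ * r0 F = b' * t * (b'⁻¹ * r0 F) := by group
      _ = b' * (t * r0 F) * b'⁻¹ := by rw [h3]; group
      _ = (b' * r0 F) * t * b'⁻¹ := by rw [hc]; group
      _ = _ := by rw [hbr]; group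
  have hnot : b' * t * b'⁻¹ ∉ RE K := by
    intro h3
    apply hQ
    have h4 : b'⁻¹ * r0 F = r0 F * b'⁻¹ := by
      rw [inv_mul_eq_iff_eq_mul, ← mul_assoc, hbr, mul_assoc, mul_inv_cancel, mul_one]
    have h5 := R_norm F _ h4 _ h3
    have e : b'⁻¹ * (b' * t * b'⁻¹) * b'⁻¹⁻¹ = t := by group
    rwa [e] at h5
  have hcx : TwE6Basic.x γ (1 : K) * TwE6Basic.x 71 1 = TwE6Basic.x 71 1 * TwE6Basic.x γ 1 := by
    have h3 := congrArg Subtype.val hbt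
    rw [← h2']
    exact h3
  simp only [List.mem_cons, List.not_mem_nil, or_false] at hγ
  have hta : b' * t * b'⁻¹ = a0 F := by
    rcases hγ with rfl | rfl | rfl | rfl | rfl
    · exfalso
      apply hnot
      have h3 : b' * t * b'⁻¹ = r0 F := Subtype.ext h2'
      rw [h3]; exact r0_mem_RE F
    · exfalso
      apply hnot
      have h3 : b' * t * b'⁻¹ = c0 F := Subtype.ext h2'
      rw [h3]; exact c_R F
    · exact Subtype.ext h2'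
    · exfalso
      have h3 : (TwE6Basic.x 71 (1 : K) * TwE6Basic.x 25 1) ^ 2 = 1 := by
        rw [pow_two]
        calc TwE6Basic.x 71 (1 : K) * TwE6Basic.x 25 1 * (TwE6Basic.x 71 1 * TwE6Basic.x 25 1) = TwE6Basic.x 71 1 * (TwE6Basic.x 25 1 * TwE6Basic.x 71 1) * TwE6Basic.x 25 1 := by group
          _ = (TwE6Basic.x 71 1 * TwE6Basic.x 71 1) * (TwE6Basic.x 25 1 * TwE6Basic.x 25 1) := by rw [hcx]; group
          _ = 1 := by rw [x_sq, x_sq, one_mul]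
      rw [sq25] at h3
      exact x_ne_one (K := K) (r := 70) (by norm_num) h3
    · exfalso
      have h3 : (TwE6Basic.x 71 (1 : K) * TwE6Basic.x 0 1) ^ 2 = 1 := by
        rw [pow_two]
        calc TwE6Basic.x 71 (1 : K) * TwE6Basic.x 0 1 * (TwE6Basic.x 71 1 * TwE6Basic.x 0 1) = TwE6Basic.x 71 1 * (TwE6Basic.x 0 1 * TwE6Basic.x 71 1) * TwE6Basic.x 0 1 := by group
          _ = (TwE6Basic.x 71 1 * TwE6Basic.x 71 1) * (TwE6Basic.x 0 1 * TwE6Basic.x 0 1) := by rw [hcx]; group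
          _ = 1 := by rw [x_sq, x_sq, one_mul]
      have h4 := cube0 (K := K)
      rw [pow_succ, h3, one_mul] at h4
      have h5 : TwE6Basic.x 71 (1 : K) = TwE6Basic.x 0 1 := by
        rw [eq_inv_of_mul_eq_one_left h4, inv_eq_of_mul_eq_one_left (x_sq 0)]
      exact x_ne (K := K) (r := 71) (s := 0) (by norm_num) (by norm_num) (by norm_num) h5
  have hbr' : b'⁻¹ * r0 F = r0 F * b'⁻¹ := by
    rw [inv_mul_eq_iff_eq_mul, ← mul_assoc, hbr, mul_assoc, mul_inv_cancel, mul_one]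
  have h3 := not_stab F hpos hneg hbr'
  have e : b'⁻¹ * a0 F * b'⁻¹⁻¹ = t := by rw [← hta]; group
  rw [e] at h3
  intro h4
  apply h3
  refine ⟨hc, ?_⟩
  rcases mem_zpowers_two (r0_sq' F) h4 with h5 | h5
  · left
    rw [commutatorElement_def, mul_inv_eq_one] at h5
    exact h5
  · right
    rw [commutatorElement_def, mul_inv_eq_iff_eq_mul] at h5
    rw [h5, u0_r0 F]

end Cfsg.Agent.H203.EPX
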