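import Cfsg.Agent.H203.EPX.GsideOf
import Cfsg.Agent.H891.EPF.FourA

/-!
# S5745, the row `(²E₆(2), Fi₂₂)`: the `²E₆(2)`-side (helper203, with helper406, helper622, helper891)
-/

set_option autoImplicit false

namespace Cfsg.Agent.H203.EPX

open Cfsg.Lie Cfsg.Agent.ChevalleyStructure
open Cfsg.Agent.Nodes.RGDTwE6
open Cfsg.Agent.TwoESix.LeviA Cfsg.Agent.TwoESix.LongPairs Cfsg.Agent.TwoESix.LongCard Cfsg.Agent.TwoESix.FlagH
  Cfsg.Agent.TwoESix.SheetA
open scoped commutatorElement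

universe u

/-- **The facts on `²E₆(2)`.** -/
theorem gside (K : Type u) [Field K] [Fintype K] (hK : Fintype.card K = 4) :
    ∃ (r : ↥(twistedE6 K 2)) (Q : Subgroup ↥(twistedE6 K 2)) (u : ↥(twistedE6 K 2)), GSide r Q u := by
  obtain ⟨-, φ, F⟩ := exists_four K hK
  have key : ∀ t : ↥(twistedE6 K 2), t * u0 F * t⁻¹ * (u0 F)⁻¹ ≠ 1 → t * u0 F * t⁻¹ * (u0 F)⁻¹ ≠ r0 F → t ∉ St0 F := by
    rintro t h1 h2 ⟨-, h3 | h3⟩
    · apply h1
      rw [h3, mul_inv_cancel]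
    · apply h2
      rw [h3, u0_r0 F, mul_inv_cancel_right]
  refine ⟨r0 F, _, u0 F, gside_of_chk F (fun l hl y hy hy1 => ?_) (fun l hl p1 h1 p2 h2 p3 h3 y hy hy1 => ?_)⟩
  · have h := Cfsg.Agent.H891.EPF.chk_pos F (b := l.1) (y := y) (by
      simp only [lst, List.mem_cons, List.not_mem_nil, or_false] at hl
      rcases hl with rfl | rfl | rfl <;> simp) hy hy1
    exact key y h.1 h.2
  · have h := Cfsg.Agent.H891.EPF.chk_neg F (l := l) hl h1 h2 h3 hy hy1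
    exact key _ h.1 h.2

end Cfsg.Agent.H203.EPX
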