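import Cfsg.Agent.H203.EPX.Bru
import Cfsg.Agent.H622.Fi.GInst
import Cfsg.Agent.H406.EPF.Bt
import Cfsg.Agent.H891.EPF.Y

/-!
# S5745, the row `(²E₆(2), Fi₂₂)`: the `²E₆(2)`-side (helper203, with helper406, helper622, helper891)
-/

set_option autoImplicit false

namespace Cfsg.Agent.H203.EPX

open Cfsg.Lie Cfsg.Agent.ChevalleyStructure
open Cfsg.Agent.Nodes.RGDTwE6
open Cfsg.Agent.TwoESix.LeviA Cfsg.Agent.TwoESix.LongPairs Cfsg.Agent.TwoESix.LongCard Cfsg.Agent.TwoESix.FlagH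
  Cfsg.Agent.TwoESix.SheetA
open Cfsg.Agent.BabyU (rootClass)
open scoped commutatorElement

universe u

variable {K : Type u} [Field K] [Fintype K] {φ : K →+* K} (F : Four K φ)

include F

theorem gside_of_chk
    (hpos : ∀ l ∈ lst, ∀ y ∈ X φ 2 l.1, y ≠ 1 → y ∉ St0 F)
    (hneg : ∀ l ∈ lst, ∀ p1 ∈ X φ 2 l.1, ∀ p2 ∈ X φ 2 l.2.1, ∀ p3 ∈ X φ 2 l.2.2, ∀ y ∈ X φ 2 (-l.1), y ≠ 1 →
      p1 * p2 * p3 * y * (p1 * p2 * p3)⁻¹ ∉ St0 F) : GSide (r0 F) (RE K) (u0 F) := by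
  have hu1 : u0 F ∉ Subgroup.zpowers (r0 F) := by
    intro h
    have h1 := mem_zpowers_two (r0_sq' F) h
    -- `u` does not commute with `x_70`
    have h2 : u0 F * xe F 70 (by decide +kernel) = xe F 70 (by decide +kernel) * u0 F := by
      rcases h1 with h1 | h1
      · rw [h1]; group
      · rw [h1]
        exact (RE_comm_r0 F (c_R F)).symm
    have h3 : xe F 46 (by decide +kernel) * c0 F = c0 F * xe F 46 (by decide +kernel) := by
      have h4 : xe F 46 (by decide +kernel) * c0 F * c0 F = c0 F * (xe F 46 (by decide +kernel) * c0 F) := h2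
      rw [← mul_assoc] at h4
      exact mul_right_cancel h4
    exact xe46_not_comm F h3
  refine Cfsg.Agent.H622.Fi.gside_of F (u0_RE F) hu1 (fun a ha hc hQ => ?_) ?_ ?_
    (Cfsg.Agent.H406.EPF.bt F)
  · obtain ⟨k, rfl⟩ := Cfsg.Agent.TwoESix.KeyExtra.exists_conj F ha
    exact tr F hpos hneg k hc hQ
  · obtain ⟨y, h1, h2, h3⟩ := Cfsg.Agent.H891.EPF.exists_y F (p := 7) (Or.inr rfl)
    exact ⟨y, h2, h1, h3⟩
  · obtain ⟨y, h1, h2, h3⟩ := Cfsg.Agent.H891.EPF.exists_y F (p := 5) (Or.inl rfl)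
    exact ⟨y, h2, h1, h3⟩

end Cfsg.Agent.H203.EPX
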